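import Cfsg.Agent.H684.RankOne
import Cfsg.Agent.H993.OC.Abs
import Cfsg.Agent.CharactersDeep.IndFun
import Cfsg.Agent.Characters.MonomialVec

/-!
# S4891, rank one groups in defining characteristic: the monomial character `Ind_B η`, `η ^ 2 = 1` (helper569)
-/

set_option autoImplicit false

open Cfsg

namespace Cfsg.Agent.H569.OC

open Cfsg.Agent.H684.RankOne Cfsg.Agent.Characters Cfsg.Agent.OddOrderCharacters.Clifford Cfsg.Agent.H53.HC
open scoped ComplexConjugate

universe u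

variable {S : Type u} [Group S] {p : ℕ} {U B : Subgroup S} {w : S}

/-- the cosets of `B` -/
noncomputable def cosets (H : RO p U B w) : Option U ≃ S ⧸ B :=
  Equiv.ofBijective (fun o => match o with
    | none => (QuotientGroup.mk (1 : S) : S ⧸ B)
    | some u => QuotientGroup.mk ((u : S) * w)) (by
    have hwB : w ∉ B := fun h => H.w_not_norm (H.norm h)
    have key : ∀ u : U, (u : S) * w ∉ B := fun u h => hwB (by
      have := mul_mem (inv_mem (H.le u.2)) h
      rwa [inv_mul_cancel_left] at this)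
    constructor
    · rintro (_ | u) (_ | v) h
      · rfl
      · exfalso
        have h1 := QuotientGroup.eq.1 h
        rw [inv_one, one_mul] at h1
        exact key v h1
      · exfalso
        have h1 := QuotientGroup.eq.1 h.symm
        rw [inv_one, one_mul] at h1
        exact key u h1
      · have h1 := QuotientGroup.eq.1 h
        have h2 : (u : S)⁻¹ * v = 1 := by
          refine H.inter _ (mul_mem (inv_mem u.2) v.2) ?_
          have e : w⁻¹ * ((u : S)⁻¹ * v) * w = ((u : S) * w)⁻¹ * (v * w) := by group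
          rwa [e]
        rw [inv_mul_eq_one] at h2
        exact congrArg some (Subtype.ext h2)
    · intro q
      obtain ⟨g, rfl⟩ := QuotientGroup.mk_surjective q
      by_cases hg : g ∈ B
      · refine ⟨none, ?_⟩
        change (QuotientGroup.mk (1 : S) : S ⧸ B) = QuotientGroup.mk g
        rw [QuotientGroup.eq, inv_one, one_mul]
        exact hg
      · obtain ⟨u, hu, b, hb, rfl⟩ := H.bruhat g hg
        refine ⟨some ⟨u, hu⟩, ?_⟩
        change (QuotientGroup.mk (u * w) : S ⧸ B) = QuotientGroup.mk (u * w * b)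
        rw [QuotientGroup.eq, inv_mul_cancel_left]
        exact hb)

theorem sum_cosets [Fintype U] [Fintype (S ⧸ B)] (H : RO p U B w) (F : S → ℂ) (hF : ∀ x, ∀ b ∈ B, F (x * b) = F x) :
    ∑ q : S ⧸ B, F q.out = F 1 + ∑ u : U, F ((u : S) * w) := by
  rw [← (cosets H).sum_comp, Fintype.sum_option]
  have key : ∀ x : S, F (QuotientGroup.mk x : S ⧸ B).out = F x := by
    intro x
    obtain ⟨b, hb⟩ := QuotientGroup.mk_out_eq_mul B x
    rw [hb]
    exact hF x b b.2
  congr 1
  · exact key 1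
  · exact Finset.sum_congr rfl fun u _ => key _

variable [Fintype S]

/-- the value of a character induced from a linear character of `B` -/
theorem ind_apply (H : RO p U B w) [Fintype U] (η : B →* ℂˣ) (g : S) :
    indFun B (fun b => (η b : ℂ)) g = extendByZero B (fun b => (η b : ℂ)) g +
      ∑ u : U, extendByZero B (fun b => (η b : ℂ)) (((u : S) * w)⁻¹ * g * ((u : S) * w)) := by
  classical
  let _ : Fintype (S ⧸ B) := Fintype.ofFinite _
  have hcl : ∀ h k : B, (fun b => (η b : ℂ)) (h * k * h⁻¹) = (fun b => (η b : ℂ)) k := fun h k => by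
    change ((η (h * k * h⁻¹) : ℂˣ) : ℂ) = η k
    rw [map_mul, map_mul, map_inv, mul_comm (η h), mul_assoc, mul_inv_cancel, mul_one]
  have hcf : IsClassFunction B (fun b => (η b : ℂ)) := fun g h => hcl h g
  rw [MonomialVec.indFun_eq_sum_quotient B _ hcl, sum_cosets H (fun x => extendByZero B _ (x⁻¹ * g * x))]
  · rw [inv_one, one_mul, mul_one]
  · intro x b hb
    have e : (x * b)⁻¹ * g * (x * b) = b⁻¹ * (x⁻¹ * g * x) * b := by group
    rw [e, ext_conj hcf hb]

theorem card_eq (H : RO p U B w) : Nat.card (S ⧸ B) = Nat.card U + 1 := by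
  rw [← Nat.card_congr (cosets H), Finite.card_option]

theorem ind_one (H : RO p U B w) (η : B →* ℂˣ) :
    indFun B (fun b => (η b : ℂ)) 1 = ((Nat.card U + 1 : ℕ) : ℂ) := by
  rw [H993.OC.indFun_one', Subgroup.index_eq_card, card_eq H]

/-- the values on the nontrivial elements of `U` -/
theorem ind_U (H : RO p U B w) {η : B →* ℂˣ} (hU : ∀ (u : S) (hu : u ∈ U), η ⟨u, H.le hu⟩ = 1) {v : S} (hv : v ∈ U)
    (hv1 : v ≠ 1) : indFun B (fun b => (η b : ℂ)) v = 1 := by
  classical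
  let _ : Fintype U := Fintype.ofFinite _
  rw [ind_apply H, ext_apply_mem _ _ _ (H.le hv), hU v hv, Finset.sum_eq_zero]
  · simp
  · intro u _
    apply ext_apply_not_mem
    intro h
    have e : ((u : S) * w)⁻¹ * v * ((u : S) * w) = w⁻¹ * ((u : S)⁻¹ * v * u) * w := by group
    rw [e] at h
    have h1 := H.inter _ (mul_mem (mul_mem (inv_mem u.2) hv) u.2) h
    apply hv1
    have h2 : v = u * ((u : S)⁻¹ * v * u) * (u : S)⁻¹ := by group
    rw [h2, h1]
    group

omit [Fintype S] in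
/-- a linear character with square 1 is real -/
theorem conj_eta {B : Subgroup S} {η : B →* ℂˣ} (h2 : ∀ b, η b ^ 2 = 1) (b : B) : conj (η b : ℂ) = η b := by
  have h1 : ((η b : ℂˣ) : ℂ) ^ 2 = 1 := by rw [← Units.val_pow_eq_pow_val, h2, Units.val_one]
  rcases mul_self_eq_one_iff.1 ((pow_two _).symm.trans h1) with h | h
  · rw [h, map_one]
  · rw [h, map_neg, map_one]

omit [Fintype S] in
theorem eta_int {B : Subgroup S} {η : B →* ℂˣ} (h2 : ∀ b, η b ^ 2 = 1) (b : B) : ∃ k : ℤ, (η b : ℂ) = k := by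
  have h1 : ((η b : ℂˣ) : ℂ) ^ 2 = 1 := by rw [← Units.val_pow_eq_pow_val, h2, Units.val_one]
  rcases mul_self_eq_one_iff.1 ((pow_two _).symm.trans h1) with h | h
  · exact ⟨1, by rw [h, Int.cast_one]⟩
  · exact ⟨-1, by rw [h, Int.cast_neg, Int.cast_one]⟩

omit [Fintype S] in
theorem ext_int {B : Subgroup S} {η : B →* ℂˣ} (h2 : ∀ b, η b ^ 2 = 1) (x : S) :
    ∃ k : ℤ, extendByZero B (fun b => (η b : ℂ)) x = k := by
  by_cases hx : x ∈ B
  · rw [ext_apply_mem _ _ _ hx]
    exact eta_int h2 _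
  · rw [ext_apply_not_mem _ _ _ hx]
    exact ⟨0, by simp⟩

/-- the values are integers -/
theorem ind_int (H : RO p U B w) {η : B →* ℂˣ} (h2 : ∀ b, η b ^ 2 = 1) (g : S) :
    ∃ k : ℤ, indFun B (fun b => (η b : ℂ)) g = k := by
  classical
  let _ : Fintype U := Fintype.ofFinite _
  rw [ind_apply H]
  obtain ⟨k, hk⟩ := ext_int (B := B) h2 g
  choose f hf using fun u : U => ext_int (B := B) h2 (((u : S) * w)⁻¹ * g * ((u : S) * w))
  refine ⟨k + ∑ u, f u, ?_⟩
  rw [hk, Finset.sum_congr rfl fun u _ => hf u]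
  push_cast
  rfl

theorem conj_int {z : ℂ} (h : ∃ k : ℤ, z = k) : conj z = z := by
  obtain ⟨k, rfl⟩ := h
  exact map_intCast (starRingEnd ℂ) k

/-- `⟨Ψ, 1⟩ = 0` -/
theorem inner_one {η : B →* ℂˣ} (h1 : η ≠ 1) : classInner (indFun B (fun b => (η b : ℂ))) 1 = 0 := by
  classical
  let _ : Fintype B := Fintype.ofFinite _
  rw [CharactersDeep.IndFun.classInner_indFun B _ 1 (fun _ _ => rfl)]
  unfold classInner
  have h2 : ∑ b : B, (η b : ℂ) * conj ((1 : S → ℂ) b) = ∑ b : B, (η b : ℂ) :=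
    Finset.sum_congr rfl fun b _ => by simp
  have h3 : ∑ b : B, (η b : ℂ) = 0 := by
    obtain ⟨b₀, hb₀⟩ : ∃ b₀, η b₀ ≠ 1 := by
      by_contra h
      push Not at h
      exact h1 (MonoidHom.ext h)
    have h4 : (η b₀ : ℂ) * ∑ b : B, (η b : ℂ) = ∑ b : B, (η b : ℂ) := by
      rw [Finset.mul_sum]
      refine (Finset.sum_congr rfl fun b _ => ?_).trans (Equiv.sum_comp (Equiv.mulLeft b₀) (fun b => (η b : ℂ)))
      change _ = ((η (b₀ * b) : ℂˣ) : ℂ)
      rw [map_mul, Units.val_mul]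
    have h5 : ((η b₀ : ℂ) - 1) * ∑ b : B, (η b : ℂ) = 0 := by rw [sub_mul, h4, one_mul, sub_self]
    refine (mul_eq_zero.1 h5).resolve_left fun h6 => hb₀ ?_
    exact Units.ext (sub_eq_zero.1 h6)
  rw [h2, h3, mul_zero]

/-- `⟨Ψ, Ψ⟩ = 2` -/
theorem inner_self (H : RO p U B w) {η : B →* ℂˣ} (h2 : ∀ b, η b ^ 2 = 1)
    (hw : ∀ (t : B) (h : w⁻¹ * t * w ∈ B), η ⟨_, h⟩ = η t)
    (hN : Nat.card U * Nat.card {t : B // w⁻¹ * (t : S) * w ∈ B} = Nat.card B) :
    classInner (indFun B (fun b => (η b : ℂ))) (indFun B (fun b => (η b : ℂ))) = 2 := by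
  classical
  let _ : Fintype B := Fintype.ofFinite _
  let _ : Fintype U := Fintype.ofFinite _
  rw [CharactersDeep.IndFun.classInner_indFun B _ _ (isClassFunction_indFun B _)]
  unfold classInner
  have h3 : ∀ b : B, (η b : ℂ) * conj (indFun B (fun b => (η b : ℂ)) b) = 1 + ∑ u : U,
      (η b : ℂ) * extendByZero B (fun b => (η b : ℂ)) (((u : S) * w)⁻¹ * b * ((u : S) * w)) := by
    intro b
    rw [conj_int (ind_int H h2 b), ind_apply H, ext_apply_coe, mul_add, Finset.mul_sum]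
    congr 1
    rw [← pow_two, ← Units.val_pow_eq_pow_val, h2, Units.val_one]
  rw [Finset.sum_congr rfl fun b _ => h3 b, Finset.sum_add_distrib, Finset.sum_comm]
  -- the inner sums
  have h4 : ∀ u : U, ∑ b : B, (η b : ℂ) * extendByZero B (fun b => (η b : ℂ)) (((u : S) * w)⁻¹ * b * ((u : S) * w)) =
      (Nat.card {t : B // w⁻¹ * (t : S) * w ∈ B} : ℂ) := by
    intro u
    let u' : B := ⟨u, H.le u.2⟩
    rw [← Equiv.sum_comp (MulAut.conj u').toEquiv]
    have h5 : ∀ t : B, (η ((MulAut.conj u').toEquiv t) : ℂ) * extendByZero B (fun b => (η b : ℂ))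
        (((u : S) * w)⁻¹ * ((MulAut.conj u').toEquiv t : B) * ((u : S) * w)) =
        if w⁻¹ * (t : S) * w ∈ B then 1 else 0 := by
      intro t
      have e1 : ((MulAut.conj u').toEquiv t : B) = u' * t * u'⁻¹ := rfl
      have e2 : ((u : S) * w)⁻¹ * ((u' * t * u'⁻¹ : B) : S) * ((u : S) * w) = w⁻¹ * t * w := by
        change ((u : S) * w)⁻¹ * ((u : S) * t * (u : S)⁻¹) * ((u : S) * w) = _
        group
      have e3 : η (u' * t * u'⁻¹) = η t := by
        rw [map_mul, map_mul, map_inv, mul_comm (η u'), mul_assoc, mul_inv_cancel, mul_one]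
      rw [e1, e2, e3]
      split_ifs with h
      · rw [ext_apply_mem _ _ _ h, hw t h, ← pow_two, ← Units.val_pow_eq_pow_val, h2, Units.val_one]
      · rw [ext_apply_not_mem _ _ _ h, mul_zero]
    rw [Finset.sum_congr rfl fun t _ => h5 t, Finset.sum_ite, Finset.sum_const_zero, add_zero, Finset.sum_const,
      nsmul_eq_mul, mul_one, Nat.card_eq_fintype_card, Fintype.card_subtype]
  rw [Finset.sum_congr rfl fun u _ => h4 u, Finset.sum_const, Finset.sum_const, Finset.card_univ, Finset.card_univ,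
    nsmul_eq_mul, nsmul_eq_mul, mul_one, ← Nat.card_eq_fintype_card, ← Nat.card_eq_fintype_card, ← Nat.cast_mul, hN]
  have h6 : (Nat.card B : ℂ) ≠ 0 := Nat.cast_ne_zero.2 Nat.card_pos.ne'
  field_simp
  norm_num

/-- `⟨Ψ, Ind_U λ⟩ = 1` -/
theorem inner_lam (H : RO p U B w) {η : B →* ℂˣ} (h2 : ∀ b, η b ^ 2 = 1)
    (hU : ∀ (u : S) (hu : u ∈ U), η ⟨u, H.le hu⟩ = 1) {lam : U →* ℂˣ} (hlam : lam ≠ 1) :
    classInner (indFun B (fun b => (η b : ℂ))) (indFun U (fun u => (lam u : ℂ))) = 1 := by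
  classical
  let _ : Fintype U := Fintype.ofFinite _
  have h3 : classInner (indFun U (fun u => (lam u : ℂ))) (indFun B (fun b => (η b : ℂ))) = 1 := by
    rw [CharactersDeep.IndFun.classInner_indFun U _ _ (isClassFunction_indFun B _)]
    unfold classInner
    have h4 : ∀ u : U, (lam u : ℂ) * conj (indFun B (fun b => (η b : ℂ)) u) =
        (lam u : ℂ) + if u = 1 then (Nat.card U : ℂ) else 0 := by
      intro u
      rw [conj_int (ind_int H h2 u)]
      split_ifs with h
      · subst h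
        rw [map_one, Units.val_one, Subgroup.coe_one, ind_one H]
        push_cast
        ring
      · rw [ind_U H hU u.2 (fun h' => h (Subtype.ext h')), mul_one, add_zero]
    have h5 : ∑ u : U, (lam u : ℂ) = 0 := by
      obtain ⟨b₀, hb₀⟩ : ∃ b₀, lam b₀ ≠ 1 := by
        by_contra h
        push Not at h
        exact hlam (MonoidHom.ext h)
      have h4 : (lam b₀ : ℂ) * ∑ b : U, (lam b : ℂ) = ∑ b : U, (lam b : ℂ) := by
        rw [Finset.mul_sum]
        refine (Finset.sum_congr rfl fun b _ => ?_).trans (Equiv.sum_comp (Equiv.mulLeft b₀) (fun b => (lam b : ℂ)))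
        change _ = ((lam (b₀ * b) : ℂˣ) : ℂ)
        rw [map_mul, Units.val_mul]
      have h5 : ((lam b₀ : ℂ) - 1) * ∑ b : U, (lam b : ℂ) = 0 := by rw [sub_mul, h4, one_mul, sub_self]
      refine (mul_eq_zero.1 h5).resolve_left fun h6 => hb₀ ?_
      exact Units.ext (sub_eq_zero.1 h6)
    rw [Finset.sum_congr rfl fun u _ => h4 u, Finset.sum_add_distrib, h5, zero_add, Finset.sum_ite_eq' Finset.univ (1 : U),
      if_pos (Finset.mem_univ _)]
    exact inv_mul_cancel₀ (Nat.cast_ne_zero.2 Nat.card_pos.ne')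
  have h4 : classInner (indFun B (fun b => (η b : ℂ))) (indFun U (fun u => (lam u : ℂ))) =
      conj (classInner (indFun U (fun u => (lam u : ℂ))) (indFun B (fun b => (η b : ℂ)))) := by
    unfold classInner
    rw [map_mul, map_inv₀, Complex.conj_natCast, map_sum]
    congr 1
    refine Finset.sum_congr rfl fun x _ => ?_
    rw [map_mul, Complex.conj_conj, mul_comm]
  rw [h4, h3, map_one]

/-- `Ind_U λ` is rational for `λ` of order 3, inverted by an element normalising `U` -/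
theorem lam_rat {lam : U →* ℂˣ} (h3 : ∀ u, lam u ^ 3 = 1) {i : S} (hi : ∀ u, u ∈ U ↔ i⁻¹ * u * i ∈ U)
    (hin : ∀ (u : S) (hu : u ∈ U) (hu' : i⁻¹ * u * i ∈ U), lam ⟨_, hu'⟩ = (lam ⟨u, hu⟩)⁻¹) (g : S) :
    ∃ k : ℚ, indFun U (fun u => (lam u : ℂ)) g = k := by
  classical
  -- the sum of the terms `x`, `x * i`
  have key : ∀ x : S, ∃ k : ℚ, extendByZero U (fun u => (lam u : ℂ)) (x⁻¹ * g * x) +
      extendByZero U (fun u => (lam u : ℂ)) ((x * i)⁻¹ * g * (x * i)) = k := by
    intro x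
    have e : (x * i)⁻¹ * g * (x * i) = i⁻¹ * (x⁻¹ * g * x) * i := by group
    rw [e]
    by_cases hx : x⁻¹ * g * x ∈ U
    · have hx' := (hi _).1 hx
      rw [ext_apply_mem _ _ _ hx, ext_apply_mem _ _ _ hx', hin _ hx hx', Units.val_inv_eq_inv_val]
      have h4 : ((lam ⟨_, hx⟩ : ℂˣ) : ℂ) ^ 3 = 1 := by
        rw [← Units.val_pow_eq_pow_val, h3, Units.val_one]
      set z := ((lam ⟨_, hx⟩ : ℂˣ) : ℂ) with hz
      have hz0 : z ≠ 0 := by rw [hz]; exact Units.ne_zero _
      by_cases h1 : z = 1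
      · exact ⟨2, by rw [h1]; norm_num⟩
      · refine ⟨-1, ?_⟩
        have h5 : z ^ 2 + z + 1 = 0 := by
          have h6 : (z - 1) * (z ^ 2 + z + 1) = 0 := by linear_combination h4
          exact (mul_eq_zero.1 h6).resolve_left (sub_ne_zero.2 h1)
        push_cast
        field_simp
        linear_combination h5
    · have hx' : i⁻¹ * (x⁻¹ * g * x) * i ∉ U := fun h => hx ((hi _).2 h)
      rw [ext_apply_not_mem _ _ _ hx, ext_apply_not_mem _ _ _ hx']
      exact ⟨0, by simp⟩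
  choose f hf using key
  have h5 : 2 * ∑ x : S, extendByZero U (fun u => (lam u : ℂ)) (x⁻¹ * g * x) = ∑ x : S, (f x : ℂ) := by
    rw [← Finset.sum_congr rfl fun x _ => hf x, Finset.sum_add_distrib, two_mul]
    congr 1
    exact (Equiv.sum_comp (Equiv.mulRight i) (fun x => extendByZero U (fun u => (lam u : ℂ)) (x⁻¹ * g * x))).symm
  refine ⟨(Nat.card U : ℚ)⁻¹ * ((∑ x : S, f x) / 2), ?_⟩
  unfold indFun
  have h6 : ∑ x : S, extendByZero U (fun u => (lam u : ℂ)) (x⁻¹ * g * x) = (∑ x : S, (f x : ℂ)) / 2 := by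
    rw [← h5]; ring
  rw [h6]
  push_cast
  rfl

/-- an automorphism maps `U` to a conjugate -/
theorem exists_conj [Fact p.Prime] (hUi : ¬ p ∣ U.index) (hU : IsPGroup p U) (α : MulAut S) :
    ∃ g : S, ∀ x, x ∈ U ↔ g⁻¹ * α x * g ∈ U := by
  have hp : p.Prime := Fact.out
  let P : Sylow p S := hU.toSylow hUi
  obtain ⟨g, hg⟩ := MulAction.exists_smul_eq S P (α • P)
  refine ⟨g, fun x => ?_⟩
  have h1 : ((g • P : Sylow p S) : Subgroup S) = ((α • P : Sylow p S) : Subgroup S) := by rw [hg]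
  have h2 : ((g • P : Sylow p S) : Subgroup S) = U.map (MulAut.conj g).toMonoidHom := rfl
  have h3 : ((α • P : Sylow p S) : Subgroup S) = U.map α.toMonoidHom := rfl
  constructor
  · intro hx
    have h4 : α x ∈ U.map (MulAut.conj g).toMonoidHom := by
      rw [← h2, h1, h3]
      exact ⟨x, hx, rfl⟩
    obtain ⟨y, hy, hxy⟩ := h4
    have h5 : g * y * g⁻¹ = α x := hxy
    rw [← h5]
    have e : g⁻¹ * (g * y * g⁻¹) * g = y := by group
    rwa [e]
  · intro hx
    have h4 : α x ∈ U.map α.toMonoidHom := by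
      rw [← h3, ← h1, h2]
      refine ⟨_, hx, ?_⟩
      change g * (g⁻¹ * α x * g) * g⁻¹ = α x
      group
    obtain ⟨y, hy, hxy⟩ := h4
    have h5 : y = x := α.injective hxy
    rwa [← h5]

/-- two descriptions of an induced character -/
theorem ind_congr {B : Subgroup S} (θ : B → ℂ) (β : MulAut S)
    (hB : ∀ x, x ∈ B ↔ β x ∈ B) (hθ : ∀ (x : S) (h : x ∈ B), θ ⟨β x, (hB x).1 h⟩ = θ ⟨x, h⟩) (x : S) :
    indFun B θ (β x) = indFun B θ x := by
  unfold indFun
  congr 1
  rw [← Equiv.sum_comp β.toEquiv]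
  refine Finset.sum_congr rfl fun y _ => ?_
  change extendByZero B θ ((β y)⁻¹ * β x * β y) = _
  rw [← map_inv, ← map_mul, ← map_mul]
  by_cases h : y⁻¹ * x * y ∈ B
  · rw [ext_apply_mem _ _ _ h, ext_apply_mem _ _ _ ((hB _).1 h), hθ _ h]
  · rw [ext_apply_not_mem _ _ _ h, ext_apply_not_mem _ _ _ (fun h' => h ((hB _).2 h'))]

/-- **`Ind_B η` is invariant under all automorphisms**, if `η` is characterised by its properties -/
theorem ind_inv [Fact p.Prime] (H : RO p U B w) (hUi : ¬ p ∣ U.index) {η : B →* ℂˣ}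
    (huniq : ∀ f : B →* ℂˣ, (∀ b, f b ^ 2 = 1) → (∀ (u : S) (hu : u ∈ U), f ⟨u, H.le hu⟩ = 1) → f ≠ 1 → f = η)
    (h2 : ∀ b, η b ^ 2 = 1) (hU : ∀ (u : S) (hu : u ∈ U), η ⟨u, H.le hu⟩ = 1) (h1 : η ≠ 1) (α : MulAut S) (x : S) :
    indFun B (fun b => (η b : ℂ)) (α x) = indFun B (fun b => (η b : ℂ)) x := by
  obtain ⟨g, hg⟩ := exists_conj hUi H.pgrp α
  let β : MulAut S := MulAut.conj g⁻¹ * α
  have hβ : ∀ y, β y = g⁻¹ * α y * g := fun y => by
    change g⁻¹ * α y * g⁻¹⁻¹ = _
    rw [inv_inv]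
  have hβU : ∀ y, y ∈ U ↔ β y ∈ U := fun y => by rw [hβ]; exact hg y
  have hβB : ∀ y, y ∈ B ↔ β y ∈ B := by
    intro y
    rw [← H.norm_eq, Subgroup.mem_normalizer_iff, Subgroup.mem_normalizer_iff]
    constructor
    · intro hy z
      obtain ⟨z, rfl⟩ := β.surjective z
      rw [← hβU z, hy z, hβU, map_mul, map_mul, map_inv]
    · intro hy z
      rw [hβU z, hy, hβU (y * z * y⁻¹), map_mul, map_mul, map_inv]
  have h3 : indFun B (fun b => (η b : ℂ)) (α x) = indFun B (fun b => (η b : ℂ)) (β x) := by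
    have h4 := isClassFunction_indFun B (fun b => (η b : ℂ)) (α x) g⁻¹
    rw [inv_inv, ← hβ] at h4
    exact h4.symm
  rw [h3]
  let f : B →* ℂˣ := η.comp
    { toFun := fun b => ⟨β b, (hβB b).1 b.2⟩
      map_one' := Subtype.ext (map_one β)
      map_mul' := fun a b => Subtype.ext (map_mul β _ _) }
  have hf : f = η := by
    refine huniq f (fun b => h2 _) (fun u hu => hU _ ((hβU u).1 hu)) fun h4 => h1 (MonoidHom.ext fun b => ?_)
    have h5 := DFunLike.congr_fun h4 ⟨β.symm b, (hβB _).2 (by rw [MulEquiv.apply_symm_apply]; exact b.2)⟩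
    have h6 : f ⟨β.symm b, (hβB _).2 (by rw [MulEquiv.apply_symm_apply]; exact b.2)⟩ = η b := by
      change η _ = _
      congr 1
      exact Subtype.ext (MulEquiv.apply_symm_apply β b)
    rw [← h6, h5]
    rfl
  refine ind_congr _ β hβB (fun y hy => ?_) x
  have h5 := DFunLike.congr_fun hf ⟨y, hy⟩
  exact congrArg Units.val h5

end Cfsg.Agent.H569.OC
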